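import Mathlib

/-!
# The inequalities for `PSU_n(q)`, `p ∣ q + 1` and `p ∣ q - 1` (helper719, S4932)
-/

set_option autoImplicit false

namespace Cfsg.Agent.H719.BD

theorem main_sq {q f g n α X B : ℕ} (hn : 9 ≤ n) (hα : 2 * α ≤ 3 * q ^ (2 * n - 3))
    (hX : X ^ 2 ≤ (3 * (q + 1) ^ 2) ^ (n - 1)) (hB : q ^ (n * (n - 1) / 2) ≤ B)
    (h : 5184 * f ^ 10 * g ^ 6 * q ^ (8 * n - 12) * (27 * (q + 1) ^ 6) ^ (n - 1) < q ^ (2 * (n * (n - 1)))) :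
    32 * f ^ 5 * g ^ 3 * α ^ 2 * X ^ 3 < B ^ 2 := by
  have h1 : 16 * α ^ 4 ≤ 81 * q ^ (8 * n - 12) := by
    calc 16 * α ^ 4 = (2 * α) ^ 4 := by ring
      _ ≤ (3 * q ^ (2 * n - 3)) ^ 4 := Nat.pow_le_pow_left hα 4
      _ = 81 * q ^ (8 * n - 12) := by
        rw [mul_pow, ← pow_mul]
        congr 2
        omega
  have h2 : X ^ 6 ≤ (27 * (q + 1) ^ 6) ^ (n - 1) := by
    calc X ^ 6 = (X ^ 2) ^ 3 := by ring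
      _ ≤ ((3 * (q + 1) ^ 2) ^ (n - 1)) ^ 3 := Nat.pow_le_pow_left hX 3
      _ = ((3 * (q + 1) ^ 2) ^ 3) ^ (n - 1) := by rw [← pow_mul, ← pow_mul, mul_comm (n - 1) 3]
      _ = (27 * (q + 1) ^ 6) ^ (n - 1) := by congr 1; ring
  have h3 : q ^ (2 * (n * (n - 1))) ≤ (B ^ 2) ^ 2 := by
    calc q ^ (2 * (n * (n - 1))) = (q ^ (n * (n - 1) / 2)) ^ 4 := by
          rw [← pow_mul]
          congr 1
          have h4 : 2 ∣ n * (n - 1) := (Nat.even_mul_pred_self n).two_dvd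
          omega
      _ ≤ B ^ 4 := Nat.pow_le_pow_left hB 4
      _ = (B ^ 2) ^ 2 := by ring
  refine lt_of_pow_lt_pow_left₀ 2 (Nat.zero_le _) ?_
  calc (32 * f ^ 5 * g ^ 3 * α ^ 2 * X ^ 3) ^ 2 = 64 * f ^ 10 * g ^ 6 * (16 * α ^ 4) * X ^ 6 := by ring
    _ ≤ 64 * f ^ 10 * g ^ 6 * (81 * q ^ (8 * n - 12)) * (27 * (q + 1) ^ 6) ^ (n - 1) := by gcongr
    _ = 5184 * f ^ 10 * g ^ 6 * q ^ (8 * n - 12) * (27 * (q + 1) ^ 6) ^ (n - 1) := by ring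
    _ < q ^ (2 * (n * (n - 1))) := h
    _ ≤ (B ^ 2) ^ 2 := h3

theorem pow8' {x : ℕ} (hx : 8 ≤ x) : 27 * (x + 1) ^ 6 ≤ x ^ 8 := by
  obtain ⟨y, rfl⟩ := Nat.exists_eq_add_of_le hx
  have h1 : (8 * (8 + y + 1)) ^ 6 ≤ (9 * (8 + y)) ^ 6 := Nat.pow_le_pow_left (by omega) 6
  have h2 : 27 * 9 ^ 6 ≤ 8 ^ 6 * (8 + y) ^ 2 := by
    calc 27 * 9 ^ 6 ≤ 8 ^ 6 * 8 ^ 2 := by norm_num
      _ ≤ 8 ^ 6 * (8 + y) ^ 2 := by gcongr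
  have h3 : 8 ^ 6 * (27 * (8 + y + 1) ^ 6) ≤ 8 ^ 6 * (8 + y) ^ 8 := by
    calc 8 ^ 6 * (27 * (8 + y + 1) ^ 6) = 27 * (8 * (8 + y + 1)) ^ 6 := by rw [mul_pow]; ring
      _ ≤ 27 * (9 * (8 + y)) ^ 6 := Nat.mul_le_mul_left _ h1
      _ = 27 * 9 ^ 6 * (8 + y) ^ 6 := by rw [mul_pow]; ring
      _ ≤ 8 ^ 6 * (8 + y) ^ 2 * (8 + y) ^ 6 := Nat.mul_le_mul_right _ h2
      _ = 8 ^ 6 * (8 + y) ^ 8 := by ring
  exact Nat.le_of_mul_le_mul_left h3 (by norm_num)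

/-- `f ^ 5 ≤ q ^ 3` -/
theorem f5 {f q : ℕ} (h : 2 ^ f ≤ q) : f ^ 5 ≤ q ^ 3 := by
  have h1 : ∀ f : ℕ, f ^ 5 ≤ 8 ^ f := by
    intro f
    induction f with
    | zero => norm_num
    | succ k ih =>
      by_cases hk : k ≤ 1
      · interval_cases k <;> norm_num
      · have h2 : (k + 1) ^ 5 ≤ 8 * k ^ 5 := by
          obtain ⟨j, rfl⟩ : ∃ j, k = j + 2 := ⟨k - 2, by omega⟩
          have h3 : 2 * (j + 2 + 1) ≤ 3 * (j + 2) := by omega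
          have h4 : 32 * (j + 2 + 1) ^ 5 ≤ 243 * (j + 2) ^ 5 := by
            calc 32 * (j + 2 + 1) ^ 5 = (2 * (j + 2 + 1)) ^ 5 := by ring
              _ ≤ (3 * (j + 2)) ^ 5 := Nat.pow_le_pow_left h3 5
              _ = 243 * (j + 2) ^ 5 := by ring
          omega
        calc (k + 1) ^ 5 ≤ 8 * k ^ 5 := h2
          _ ≤ 8 * 8 ^ k := Nat.mul_le_mul_left _ ih
          _ = 8 ^ (k + 1) := by ring
  calc f ^ 5 ≤ 8 ^ f := h1 f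
    _ = (2 ^ f) ^ 3 := by rw [← pow_mul, mul_comm, pow_mul]; norm_num
    _ ≤ q ^ 3 := Nat.pow_le_pow_left h 3

/-- `q ≥ 8` -/
theorem main_ge {q f g n : ℕ} (hn : 9 ≤ n) (hq : 8 ≤ q) (hf : 2 ^ f ≤ q) (hg : g ≤ q + 1) :
    5184 * f ^ 10 * g ^ 6 * q ^ (8 * n - 12) * (27 * (q + 1) ^ 6) ^ (n - 1) < q ^ (2 * (n * (n - 1))) := by
  have h1 : 5184 ≤ q ^ 5 := by
    calc 5184 ≤ 8 ^ 5 := by norm_num
      _ ≤ q ^ 5 := Nat.pow_le_pow_left hq 5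
  have h2 : f ^ 10 ≤ q ^ 6 := by
    calc f ^ 10 = (f ^ 5) ^ 2 := by ring
      _ ≤ (q ^ 3) ^ 2 := Nat.pow_le_pow_left (f5 hf) 2
      _ = q ^ 6 := by ring
  have h3 : g ^ 6 ≤ q ^ 8 := by
    calc g ^ 6 ≤ (q + 1) ^ 6 := Nat.pow_le_pow_left hg 6
      _ ≤ 27 * (q + 1) ^ 6 := by omega
      _ ≤ q ^ 8 := pow8' hq
  have h3' : g ^ 6 ≤ q ^ 7 := by
    have h4 : 27 * g ^ 6 ≤ q ^ 8 := (Nat.mul_le_mul_left 27 (Nat.pow_le_pow_left hg 6)).trans (pow8' hq)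
    have h5 : 8 ^ 6 * g ^ 6 ≤ 9 ^ 6 * q ^ 6 := by
      calc 8 ^ 6 * g ^ 6 = (8 * g) ^ 6 := by rw [mul_pow]
        _ ≤ (9 * q) ^ 6 := Nat.pow_le_pow_left (by omega) 6
        _ = 9 ^ 6 * q ^ 6 := by rw [mul_pow]
    have h6 : 9 ^ 6 * q ^ 6 ≤ 8 ^ 6 * q ^ 7 := by
      calc 9 ^ 6 * q ^ 6 ≤ (8 ^ 6 * 8) * q ^ 6 := Nat.mul_le_mul_right _ (by norm_num)
        _ ≤ (8 ^ 6 * q) * q ^ 6 := Nat.mul_le_mul_right _ (Nat.mul_le_mul_left _ hq)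
        _ = 8 ^ 6 * q ^ 7 := by ring
    exact Nat.le_of_mul_le_mul_left (h5.trans h6) (by norm_num)
  have h4 : (27 * (q + 1) ^ 6) ^ (n - 1) ≤ q ^ (8 * (n - 1)) := by
    rw [pow_mul]
    exact Nat.pow_le_pow_left (pow8' hq) _
  calc 5184 * f ^ 10 * g ^ 6 * q ^ (8 * n - 12) * (27 * (q + 1) ^ 6) ^ (n - 1)
      ≤ q ^ 5 * q ^ 6 * q ^ 7 * q ^ (8 * n - 12) * q ^ (8 * (n - 1)) := by gcongr
    _ = q ^ (5 + 6 + 7 + (8 * n - 12) + 8 * (n - 1)) := by rw [pow_add, pow_add, pow_add, pow_add]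
    _ < q ^ (2 * (n * (n - 1))) := by
        refine Nat.pow_lt_pow_right (by omega) ?_
        obtain ⟨k, rfl⟩ := Nat.exists_eq_add_of_le hn
        have e1 : 9 + k - 1 = 8 + k := by omega
        have e2 : 8 * (9 + k) - 12 = 60 + 8 * k := by omega
        rw [e1, e2]
        nlinarith

theorem pow10' {x : ℕ} (hx : 4 ≤ x) : 27 * (x + 1) ^ 6 ≤ x ^ 10 := by
  obtain ⟨y, rfl⟩ := Nat.exists_eq_add_of_le hx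
  have h1 : (4 * (4 + y + 1)) ^ 6 ≤ (5 * (4 + y)) ^ 6 := Nat.pow_le_pow_left (by omega) 6
  have h2 : 27 * 5 ^ 6 ≤ 4 ^ 6 * (4 + y) ^ 4 := by
    calc 27 * 5 ^ 6 ≤ 4 ^ 6 * 4 ^ 4 := by norm_num
      _ ≤ 4 ^ 6 * (4 + y) ^ 4 := by gcongr
  have h3 : 4 ^ 6 * (27 * (4 + y + 1) ^ 6) ≤ 4 ^ 6 * (4 + y) ^ 10 := by
    calc 4 ^ 6 * (27 * (4 + y + 1) ^ 6) = 27 * (4 * (4 + y + 1)) ^ 6 := by rw [mul_pow]; ring
      _ ≤ 27 * (5 * (4 + y)) ^ 6 := Nat.mul_le_mul_left _ h1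
      _ = 27 * 5 ^ 6 * (4 + y) ^ 6 := by rw [mul_pow]; ring
      _ ≤ 4 ^ 6 * (4 + y) ^ 4 * (4 + y) ^ 6 := Nat.mul_le_mul_right _ h2
      _ = 4 ^ 6 * (4 + y) ^ 10 := by ring
  exact Nat.le_of_mul_le_mul_left h3 (by norm_num)

/-- `4 ≤ q ≤ 7`, `n ≥ 25` -/
theorem main_mid {q f g n : ℕ} (hn : 25 ≤ n) (hq : 4 ≤ q) (hq7 : q ≤ 7) (hf : 2 ^ f ≤ q) (hg : g ≤ q + 1) :
    5184 * f ^ 10 * g ^ 6 * q ^ (8 * n - 12) * (27 * (q + 1) ^ 6) ^ (n - 1) < q ^ (2 * (n * (n - 1))) := by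
  have h1 : 5184 ≤ q ^ 7 := by
    calc 5184 ≤ 4 ^ 7 := by norm_num
      _ ≤ q ^ 7 := Nat.pow_le_pow_left hq 7
  have h2 : f ^ 10 ≤ q ^ 6 := by
    calc f ^ 10 = (f ^ 5) ^ 2 := by ring
      _ ≤ (q ^ 3) ^ 2 := Nat.pow_le_pow_left (f5 hf) 2
      _ = q ^ 6 := by ring
  have h3 : g ^ 6 ≤ q ^ 9 := by
    calc g ^ 6 ≤ 8 ^ 6 := Nat.pow_le_pow_left (by omega) 6
      _ ≤ 4 ^ 9 := by norm_num
      _ ≤ q ^ 9 := Nat.pow_le_pow_left hq 9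
  have h4 : (27 * (q + 1) ^ 6) ^ (n - 1) ≤ q ^ (10 * (n - 1)) := by
    rw [pow_mul]
    exact Nat.pow_le_pow_left (pow10' hq) _
  calc 5184 * f ^ 10 * g ^ 6 * q ^ (8 * n - 12) * (27 * (q + 1) ^ 6) ^ (n - 1)
      ≤ q ^ 7 * q ^ 6 * q ^ 9 * q ^ (8 * n - 12) * q ^ (10 * (n - 1)) := by gcongr
    _ = q ^ (7 + 6 + 9 + (8 * n - 12) + 10 * (n - 1)) := by rw [pow_add, pow_add, pow_add, pow_add]
    _ < q ^ (2 * (n * (n - 1))) := by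
        refine Nat.pow_lt_pow_right (by omega) ?_
        obtain ⟨k, rfl⟩ := Nat.exists_eq_add_of_le hn
        have e1 : 25 + k - 1 = 24 + k := by omega
        have e2 : 8 * (25 + k) - 12 = 188 + 8 * k := by omega
        rw [e1, e2]
        nlinarith

/-- `q = 5` -/
theorem main_five {g n : ℕ} (hn : 9 ≤ n) (hg : g ≤ 6) :
    5184 * 1 ^ 10 * g ^ 6 * 5 ^ (8 * n - 12) * (27 * (5 + 1) ^ 6) ^ (n - 1) < 5 ^ (2 * (n * (n - 1))) := by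
  have h1 : g ^ 6 ≤ 6 ^ 6 := Nat.pow_le_pow_left hg 6
  have h2 : 5184 * 1 ^ 10 * g ^ 6 ≤ 5 ^ 12 := by
    calc 5184 * 1 ^ 10 * g ^ 6 ≤ 5184 * 1 ^ 10 * 6 ^ 6 := Nat.mul_le_mul_left _ h1
      _ ≤ 5 ^ 12 := by norm_num
  have h3 : (27 * (5 + 1) ^ 6) ^ (n - 1) ≤ 5 ^ (9 * (n - 1)) := by
    rw [pow_mul]
    exact Nat.pow_le_pow_left (by norm_num) _
  by_cases hn9 : n = 9
  · subst hn9
    calc 5184 * 1 ^ 10 * g ^ 6 * 5 ^ (8 * 9 - 12) * (27 * (5 + 1) ^ 6) ^ (9 - 1) ≤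
          5184 * 1 ^ 10 * 6 ^ 6 * 5 ^ (8 * 9 - 12) * (27 * (5 + 1) ^ 6) ^ (9 - 1) := by gcongr
      _ < 5 ^ (2 * (9 * (9 - 1))) := by norm_num
  calc 5184 * 1 ^ 10 * g ^ 6 * 5 ^ (8 * n - 12) * (27 * (5 + 1) ^ 6) ^ (n - 1)
      ≤ 5 ^ 12 * 5 ^ (8 * n - 12) * 5 ^ (9 * (n - 1)) := by gcongr
    _ = 5 ^ (12 + (8 * n - 12) + 9 * (n - 1)) := by rw [pow_add, pow_add]
    _ < 5 ^ (2 * (n * (n - 1))) := by
        refine Nat.pow_lt_pow_right (by omega) ?_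
        obtain ⟨k, rfl⟩ := Nat.exists_eq_add_of_le (show 10 ≤ n by omega)
        have e1 : 10 + k - 1 = 9 + k := by omega
        have e2 : 8 * (10 + k) - 12 = 68 + 8 * k := by omega
        rw [e1, e2]
        nlinarith

/-- `q = 2` -/
theorem main_two {g n : ℕ} (hn : 12 ≤ n) (hg : g ≤ 3) :
    5184 * 1 ^ 10 * g ^ 6 * 2 ^ (8 * n - 12) * (27 * (2 + 1) ^ 6) ^ (n - 1) < 2 ^ (2 * (n * (n - 1))) := by
  have h1 : g ^ 6 ≤ 3 ^ 6 := Nat.pow_le_pow_left hg 6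
  have h2 : 5184 * 1 ^ 10 * g ^ 6 ≤ 2 ^ 22 := by
    calc 5184 * 1 ^ 10 * g ^ 6 ≤ 5184 * 1 ^ 10 * 3 ^ 6 := Nat.mul_le_mul_left _ h1
      _ ≤ 2 ^ 22 := by norm_num
  have h3 : (27 * (2 + 1) ^ 6) ^ (n - 1) ≤ 2 ^ (15 * (n - 1)) := by
    rw [pow_mul]
    exact Nat.pow_le_pow_left (by norm_num) _
  by_cases hn9 : n = 12
  · subst hn9
    calc 5184 * 1 ^ 10 * g ^ 6 * 2 ^ (8 * 12 - 12) * (27 * (2 + 1) ^ 6) ^ (12 - 1) ≤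
          5184 * 1 ^ 10 * 3 ^ 6 * 2 ^ (8 * 12 - 12) * (27 * (2 + 1) ^ 6) ^ (12 - 1) := by gcongr
      _ < 2 ^ 132 * 2 ^ 132 := by norm_num
      _ = 2 ^ (2 * (12 * (12 - 1))) := by rw [← pow_add]
  calc 5184 * 1 ^ 10 * g ^ 6 * 2 ^ (8 * n - 12) * (27 * (2 + 1) ^ 6) ^ (n - 1)
      ≤ 2 ^ 22 * 2 ^ (8 * n - 12) * 2 ^ (15 * (n - 1)) := by gcongr
    _ = 2 ^ (22 + (8 * n - 12) + 15 * (n - 1)) := by rw [pow_add, pow_add]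
    _ < 2 ^ (2 * (n * (n - 1))) := by
        refine Nat.pow_lt_pow_right (by omega) ?_
        obtain ⟨k, rfl⟩ := Nat.exists_eq_add_of_le (show 13 ≤ n by omega)
        have e1 : 13 + k - 1 = 12 + k := by omega
        have e2 : 8 * (13 + k) - 12 = 92 + 8 * k := by omega
        rw [e1, e2]
        nlinarith

end Cfsg.Agent.H719.BD
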