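import Cfsg.Agent.H719.BD.StD
import Cfsg.Agent.H719.BD.PsuNum
import Cfsg.Agent.LieClassical.HermSiegel
import Cfsg.Agent.LieClassical.HermCount
import Cfsg.Agent.Nodes.WittInst
import Cfsg.Agent.H589.BD.Ex
import Cfsg.Agent.S0279

/-!
# `PSU_n(q)`, `p ∣ q + 1`: the Steinberg character and a small degree in the principal block (helper719, S4932)
-/

set_option autoImplicit false

open Cfsg Matrix

namespace Cfsg.Agent.H719.BD.PsuOne

open Cfsg.Agent.LieClassical.HermSiegel Cfsg.Agent.LieClassical.HermBasic Cfsg.Agent.H589.BD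

variable {F : Type*} [Field F] {q n : ℕ}

/-- the natural representation -/
def rho (n q : ℕ) (F : Type*) [Field F] : SU n F q →* ((Fin n → F) →ₗ[F] (Fin n → F)) where
  toFun g := Matrix.mulVecLin (mat g)
  map_one' := by rw [mat_one, Matrix.mulVecLin_one]; rfl
  map_mul' g h := by rw [mat_mul, Matrix.mulVecLin_mul]; rfl

theorem rho_apply (g : SU n F q) (v : Fin n → F) : rho n q F g v = act g v := rfl

theorem rho_injective : Function.Injective (rho n q F) := fun a b h => ext_act fun v => by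
  rw [← rho_apply, ← rho_apply, h]

/-- diagonal elements of order dividing `p` -/
def D (n q : ℕ) (F : Type*) [Field F] (p : ℕ) : Subgroup (SU n F q) where
  carrier := {g | ∃ a : Fin n → F, mat g = Matrix.diagonal a ∧ ∀ i, a i ^ p = 1}
  one_mem' := ⟨1, by rw [mat_one, Pi.one_def, Matrix.diagonal_one], fun i => by rw [Pi.one_apply, one_pow]⟩
  mul_mem' := by
    rintro g h ⟨a, ha, ha'⟩ ⟨b, hb, hb'⟩
    exact ⟨fun i => a i * b i, by rw [mat_mul, ha, hb, Matrix.diagonal_mul_diagonal], fun i => by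
      rw [mul_pow, ha', hb', one_mul]⟩
  inv_mem' := by
    rintro g ⟨a, ha, ha'⟩
    rcases Nat.eq_zero_or_pos p with hp | hp
    · subst hp
      have h1 : ∀ i, a i ≠ 0 := by
        intro i h0
        have h2 := det_mat g
        rw [ha, Matrix.det_diagonal, Finset.prod_eq_zero (Finset.mem_univ i) h0] at h2
        exact zero_ne_one h2
      refine ⟨fun i => (a i)⁻¹, ?_, fun i => pow_zero _⟩
      have h3 : mat g * mat g⁻¹ = 1 := by rw [← mat_mul, mul_inv_cancel, mat_one]
      have h4 : Matrix.diagonal (fun i => (a i)⁻¹) * mat g = 1 := by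
        rw [ha, Matrix.diagonal_mul_diagonal, ← Matrix.diagonal_one]
        congr 1
        funext i
        exact inv_mul_cancel₀ (h1 i)
      rw [← Matrix.mul_one (Matrix.diagonal (fun i => (a i)⁻¹)), ← h3, ← Matrix.mul_assoc, h4, Matrix.one_mul]
    · have h1 : ∀ i, a i ≠ 0 := by
        intro i h0
        have h2 := ha' i
        rw [h0, zero_pow hp.ne'] at h2
        exact zero_ne_one h2
      refine ⟨fun i => (a i)⁻¹, ?_, fun i => by rw [inv_pow, ha', inv_one]⟩
      have h3 : mat g * mat g⁻¹ = 1 := by rw [← mat_mul, mul_inv_cancel, mat_one]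
      have h4 : Matrix.diagonal (fun i => (a i)⁻¹) * mat g = 1 := by
        rw [ha, Matrix.diagonal_mul_diagonal, ← Matrix.diagonal_one]
        congr 1
        funext i
        exact inv_mul_cancel₀ (h1 i)
      rw [← Matrix.mul_one (Matrix.diagonal (fun i => (a i)⁻¹)), ← h3, ← Matrix.mul_assoc, h4, Matrix.one_mul]

theorem mat_pow (g : SU n F q) (k : ℕ) : mat (g ^ k) = mat g ^ k := by
  induction k with
  | zero => rw [pow_zero, pow_zero, mat_one]
  | succ k ih => rw [pow_succ, pow_succ, mat_mul, ih]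

theorem isPGroup_D {p : ℕ} : IsPGroup p (D n q F p) := by
  rintro ⟨g, a, ha, ha'⟩
  refine ⟨1, Subtype.ext ?_⟩
  rw [pow_one]
  apply mat_injective
  show mat (g ^ p) = mat 1
  rw [mat_pow, ha, Matrix.diagonal_pow, mat_one, ← Matrix.diagonal_one]
  congr 1
  funext i
  exact ha' i

/-- the elements of `D` -/
theorem exists_mem_D {p : ℕ} (hd : p ∣ q + 1) {ζ : F} (hζ : ζ ^ p = 1)
    (hp : 0 < p) {i k : Fin n} (hik : k ≠ i) :
    ∃ g ∈ D n q F p, ∀ v : Fin n → F, ∀ l, act g v l = (if l = i then ζ else if l = k then ζ⁻¹ else 1) * v l := by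
  have hζ0 : ζ ≠ 0 := by
    rintro rfl
    rw [zero_pow hp.ne'] at hζ
    exact zero_ne_one hζ
  set a : Fin n → F := fun l => if l = i then ζ else if l = k then ζ⁻¹ else 1 with ha
  have hap : ∀ l, a l ^ p = 1 := by
    intro l
    simp only [ha]
    split_ifs
    · exact hζ
    · rw [inv_pow, hζ, inv_one]
    · exact one_pow _
  have haq : ∀ l, a l * a l ^ q = 1 := by
    intro l
    obtain ⟨c, hc⟩ := hd
    rw [← pow_succ', hc, pow_mul, hap, one_pow]
  have hprod : ∏ l, a l = 1 := by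
    have h1 : a = Pi.mulSingle i ζ * Pi.mulSingle k ζ⁻¹ := by
      funext l
      rw [Pi.mul_apply]
      simp only [ha]
      by_cases h1 : l = i
      · subst h1
        rw [if_pos rfl, Pi.mulSingle_eq_same, Pi.mulSingle_eq_of_ne hik.symm, mul_one]
      · rw [if_neg h1, Pi.mulSingle_eq_of_ne h1, one_mul]
        by_cases h2 : l = k
        · subst h2
          rw [if_pos rfl, Pi.mulSingle_eq_same]
        · rw [if_neg h2, Pi.mulSingle_eq_of_ne h2]
    rw [h1]
    simp only [Pi.mul_apply]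
    rw [Finset.prod_mul_distrib, Finset.prod_pi_mulSingle', Finset.prod_pi_mulSingle',
      if_pos (Finset.mem_univ _), if_pos (Finset.mem_univ _), mul_inv_cancel₀ hζ0]
  refine ⟨mkSU (Matrix.diagonal a) (by rw [Matrix.det_diagonal, hprod]) ?_, ⟨a, mat_mkSU _ _ _, hap⟩, ?_⟩
  · intro u v
    rw [herm_def, herm_def]
    refine Finset.sum_congr rfl fun l _ => ?_
    rw [Matrix.mulVec_diagonal, Matrix.mulVec_diagonal, mul_pow]
    have := haq l
    linear_combination (u l * v l ^ q) * this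
  · intro v l
    show (Matrix.diagonal a *ᵥ v) l = _
    rw [Matrix.mulVec_diagonal]

/-- **No invariant totally isotropic subspaces.** -/
theorem exists_aniso [Fintype F] (hF : Fintype.card F = q ^ 2) (hn : 3 ≤ n) {p : ℕ} [hp : Fact p.Prime]
    (hd : p ∣ q + 1) (U : Submodule F (Fin n → F)) (hU : U ≠ ⊥)
    (hinv : ∀ d ∈ D n q F p, ∀ u ∈ U, rho n q F d u ∈ U) : ∃ u ∈ U, hermForm n F q u u ≠ 0 := by
  classical
  obtain ⟨ζ, hζ, hζ1⟩ : ∃ ζ : F, ζ ^ p = 1 ∧ ζ ≠ 1 := by
    obtain ⟨z, hz⟩ := exists_prime_orderOf_dvd_card' (G := Fˣ) p (by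
      rw [card_units_eq hF]
      exact Dvd.dvd.mul_right hd _)
    refine ⟨z, ?_, fun h => ?_⟩
    · rw [← Units.val_pow_eq_pow_val, ← hz, pow_orderOf_eq_one, Units.val_one]
    · rw [Units.val_eq_one.1 h, orderOf_one] at hz
      exact hp.out.one_lt.ne hz
  have hex : ∃ N : ℕ, ∃ u ∈ U, u ≠ 0 ∧ (Finset.univ.filter fun i => u i ≠ 0).card = N := by
    obtain ⟨u, hu, hu0⟩ := (Submodule.ne_bot_iff U).1 hU
    exact ⟨_, u, hu, hu0, rfl⟩
  obtain ⟨u, hu, hu0, hcard⟩ := Nat.find_spec hex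
  obtain ⟨i, hi⟩ : ∃ i, u i ≠ 0 := by
    by_contra hcon
    push Not at hcon
    exact hu0 (funext hcon)
  have hsupp : ∀ j, j ≠ i → u j = 0 := by
    intro j hj
    by_contra hj0
    obtain ⟨k, hki, hkj⟩ : ∃ k : Fin n, k ≠ i ∧ k ≠ j := by
      have h1 : (({i, j} : Finset (Fin n))).card < (Finset.univ : Finset (Fin n)).card := by
        rw [Finset.card_univ, Fintype.card_fin]
        exact lt_of_le_of_lt Finset.card_le_two (by omega)
      obtain ⟨k, -, hk⟩ := Finset.exists_mem_notMem_of_card_lt_card h1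
      simp only [Finset.mem_insert, Finset.mem_singleton, not_or] at hk
      exact ⟨k, hk.1, hk.2⟩
    obtain ⟨g, hg, hact⟩ := exists_mem_D (n := n) hd hζ hp.out.pos hki
    have h1 : rho n q F g u - u ∈ U := U.sub_mem (hinv g hg u hu) hu
    -- remove the coordinate `j`
    have hval : ∀ l, (rho n q F g u - u) l = ((if l = i then ζ else if l = k then ζ⁻¹ else 1) - 1) * u l := by
      intro l
      rw [Pi.sub_apply, rho_apply, hact]
      ring
    refine Nat.find_min hex (m := (Finset.univ.filter fun l => (rho n q F g u - u) l ≠ 0).card) ?_ ⟨_, h1, ?_, rfl⟩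
    · rw [← hcard]
      apply Finset.card_lt_card
      rw [Finset.ssubset_iff_of_subset]
      · refine ⟨j, by simpa using hj0, ?_⟩
        simp only [Finset.mem_filter, Finset.mem_univ, true_and, not_not]
        rw [hval, if_neg hj, if_neg hkj.symm, sub_self, zero_mul]
      · intro l hl
        simp only [Finset.mem_filter, Finset.mem_univ, true_and] at hl ⊢
        intro h0
        exact hl (by rw [hval, h0, mul_zero])
    · intro h0
      have h2 := congrFun h0 i
      rw [hval, if_pos rfl] at h2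
      rcases mul_eq_zero.1 h2 with h3 | h3
      · exact hζ1 (sub_eq_zero.1 h3)
      · exact hi h3
  refine ⟨u, hu, ?_⟩
  rw [herm_def, Finset.sum_eq_single i]
  · exact mul_ne_zero hi (pow_ne_zero _ hi)
  · intro j _ hj
    rw [hsupp j hj, zero_mul]
  · intro h
    exact absurd (Finset.mem_univ _) h

section r

variable [Fintype F] {r : ℕ} [hr : Fact r.Prime] [CharP F r] {p : ℕ} [hp : Fact p.Prime]

/-- the form, linear in the second variable -/
def frm (n q : ℕ) (F : Type*) [Field F] (u : Fin n → F) : (Fin n → F) →ₗ[F] F where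
  toFun v := hermForm n F q v u
  map_add' v w := herm_add_left v w u
  map_smul' c v := herm_smul_left c v u

omit [Fintype F] in
theorem ker_le : (QuotientGroup.mk' (Subgroup.center (SU n F q))).ker ≤ Subgroup.center (SU n F q) := by
  rw [QuotientGroup.ker_mk']

/-- no `r`-subgroup is normalized by `D` -/
theorem no_r (hF : Fintype.card F = q ^ 2) (hn : 3 ≤ n) (hd : p ∣ q + 1) {Q : Subgroup (PSU n F q)}
    (hQ : IsPGroup r Q)
    (hDQ : (D n q F p).map (QuotientGroup.mk' (Subgroup.center (SU n F q))) ≤ Subgroup.normalizer (Q : Set (PSU n F q))) :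
    Q = ⊥ := by
  by_contra hQ1
  have hfin : Finite (SU n F q) := inferInstance
  obtain ⟨T, hT, hDT, hT1⟩ := exists_lift _ (QuotientGroup.mk'_surjective _) ker_le hQ hQ1 hDQ
  refine hT1 (eq_bot_of_form (K := F) (V := Fin n → F) (CharP.cast_eq_zero F r) (rho n q F) rho_injective (frm n q F)
    (fun g u v => herm_act g v u) (fun U hU hinv => ?_) hT hDT)
  obtain ⟨u, hu, h⟩ := exists_aniso hF hn hd U hU hinv
  exact ⟨u, hu, u, hu, h⟩

theorem exists_q (hF : Fintype.card F = q ^ 2) : ∃ f : ℕ, 1 ≤ f ∧ q = r ^ f := by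
  have hq := H719.BD.two_le_q hF
  obtain ⟨k, -, hk⟩ := FiniteField.card F r
  have hdvd : q ∣ r ^ (k : ℕ) := by
    rw [← hk, hF]
    exact dvd_pow_self q two_ne_zero
  obtain ⟨f, -, hf⟩ := (Nat.dvd_prime_pow hr.out).1 hdvd
  refine ⟨f, ?_, hf⟩
  rcases Nat.eq_zero_or_pos f with h0 | h0
  · rw [h0, pow_zero] at hf
    omega
  · exact h0

/-- the `r`-part of the order -/
theorem rpart (hF : Fintype.card F = q ^ 2) (hn : 2 ≤ n) :
    q ^ (n * (n - 1) / 2) ≤ r ^ (Nat.card (PSU n F q)).factorization r := by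
  have hfin : Finite (PSU n F q) := Quotient.finite _
  have hq := H719.BD.two_le_q hF
  obtain ⟨f, hf1, hf⟩ := exists_q (r := r) hF
  have h0 := S0280.result hF n hn
  have h1 : q ^ (n * (n - 1) / 2) ∣ Nat.card (PSU n F q) := by
    have hcop : Nat.Coprime q (q + 1) := by simp
    have h2 : Nat.Coprime (q ^ (n * (n - 1) / 2)) (Nat.gcd n (q + 1) * (q + 1)) :=
      Nat.Coprime.pow_left _ (Nat.Coprime.mul_right (Nat.Coprime.coprime_dvd_right (Nat.gcd_dvd_right _ _) hcop) hcop)
    refine h2.dvd_of_dvd_mul_left ?_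
    rw [mul_assoc, h0]
    exact dvd_mul_right _ _
  rw [hf, ← pow_mul] at h1 ⊢
  exact Nat.pow_le_pow_right hr.out.pos ((hr.out.pow_dvd_iff_le_factorization Nat.card_pos.ne').1 h1)

theorem p_ne (hF : Fintype.card F = q ^ 2) (hd : p ∣ q + 1) : p ≠ r := by
  rintro rfl
  obtain ⟨f, hf1, hf⟩ := exists_q (r := p) hF
  have h1 : p ∣ q := hf ▸ dvd_pow_self p (by omega)
  exact hp.out.one_lt.ne' (Nat.dvd_one.1 ((Nat.dvd_add_right h1).1 hd))

/-- **The Steinberg character.** -/
theorem st (hF : Fintype.card F = q ^ 2) (hn : 3 ≤ n) (hd : p ∣ q + 1) :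
    ∃ χ : IrrCharacter (PSU n F q), InB0 p χ ∧ q ^ (n * (n - 1) / 2) ≤ charDegree (χ : PSU n F q → ℂ) := by
  obtain ⟨r, hchar⟩ := CharP.exists F
  obtain ⟨k, hrp, hk⟩ := FiniteField.card F r
  have hr : Fact r.Prime := ⟨hrp⟩
  have hfin : Finite (SU n F q) := inferInstance
  have hfin : Finite (PSU n F q) := Quotient.finite _
  obtain ⟨χ, h1, h2⟩ := st_of_D (Cfsg.Agent.Nodes.WittInst.hasRGD_PSU (p := r) hF hn) (p_ne (r := r) hF hd)
    (D := (D n q F p).map (QuotientGroup.mk' (Subgroup.center (SU n F q)))) (isPGroup_D.map _)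
    (fun Q hQ hDQ => no_r hF hn hd hQ hDQ)
  exact ⟨χ, h1, by rw [h2]; exact rpart hF (by omega)⟩

end r

/-- the stabilizer of a line -/
def H0 (v : Fin n → F) : Subgroup (SU n F q) where
  carrier := {g | ∃ c : F, c ≠ 0 ∧ act g v = c • v}
  one_mem' := ⟨1, one_ne_zero, by rw [act_one, one_smul]⟩
  mul_mem' := by
    rintro g h ⟨c, hc, hg⟩ ⟨d, hd, hh⟩
    exact ⟨d * c, mul_ne_zero hd hc, by rw [act_mul, hh, act_smul, hg, smul_smul]⟩
  inv_mem' := by
    rintro g ⟨c, hc, hg⟩
    refine ⟨c⁻¹, inv_ne_zero hc, ?_⟩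
    have h1 : act g⁻¹ (act g v) = v := act_inv_act g v
    rw [hg, act_smul] at h1
    conv_rhs => rw [← h1]
    rw [smul_smul, inv_mul_cancel₀ hc, one_smul]

/-- the transvections with center `⟨v⟩` -/
def V0 [Fintype F] (hF : Fintype.card F = q ^ 2) (v : Fin n → F) (hv : hermForm n F q v v = 0) :
    Subgroup (SU n F q) where
  carrier := {g | ∃ c : F, ∀ x, act g x = x + (c * hermForm n F q x v) • v}
  one_mem' := ⟨0, fun x => by rw [act_one, zero_mul, zero_smul, add_zero]⟩
  mul_mem' := by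
    rintro g h ⟨c, hg⟩ ⟨d, hh⟩
    refine ⟨d + c, fun x => ?_⟩
    rw [act_mul, hh, hg, herm_add_left, herm_smul_left, hv]
    funext i
    simp only [Pi.add_apply, Pi.smul_apply, smul_eq_mul]
    ring
  inv_mem' := by
    rintro g ⟨c, hg⟩
    refine ⟨-c, fun x => ?_⟩
    have h1 := act_act_inv g x
    rw [hg] at h1
    have h2 : hermForm n F q x v = hermForm n F q (act g⁻¹ x) v := by
      conv_lhs => rw [← h1]
      rw [herm_add_left, herm_smul_left, hv, mul_zero, add_zero]
    rw [h2]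
    funext i
    have h3 := congrFun h1 i
    simp only [Pi.add_apply, Pi.smul_apply, smul_eq_mul] at h3 ⊢
    linear_combination h3

section r

variable [Fintype F] {r : ℕ} [hr : Fact r.Prime] [CharP F r] {p : ℕ} [hp : Fact p.Prime]

omit hr in
theorem isPGroup_V0 (hF : Fintype.card F = q ^ 2) {v : Fin n → F} (hv : hermForm n F q v v = 0) :
    IsPGroup r (V0 hF v hv) := by
  rintro ⟨g, c, hg⟩
  refine ⟨1, Subtype.ext ?_⟩
  rw [pow_one]
  show g ^ r = 1
  have key : ∀ k : ℕ, ∀ x, act (g ^ k) x = x + ((k : F) * c * hermForm n F q x v) • v := by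
    intro k
    induction k with
    | zero => intro x; rw [pow_zero, act_one, Nat.cast_zero, zero_mul, zero_mul, zero_smul, add_zero]
    | succ k ih =>
      intro x
      rw [pow_succ, act_mul, hg, ih, herm_add_left, herm_smul_left, hv, Nat.cast_succ]
      funext i
      simp only [Pi.add_apply, Pi.smul_apply, smul_eq_mul]
      ring
  apply ext_act
  intro x
  rw [key, CharP.cast_eq_zero F r, zero_mul, zero_mul, zero_smul, add_zero, act_one]

theorem le_normalizer (hF : Fintype.card F = q ^ 2) {v : Fin n → F} (hv : hermForm n F q v v = 0) :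
    H0 (q := q) v ≤ Subgroup.normalizer (V0 hF v hv : Set (SU n F q)) := by
  have key : ∀ g ∈ H0 (q := q) v, ∀ t ∈ V0 hF v hv, g * t * g⁻¹ ∈ V0 hF v hv := by
    rintro g ⟨c, hc, hg⟩ t ⟨d, ht⟩
    refine ⟨d * c * c ^ q, fun x => ?_⟩
    rw [act_mul, act_mul, ht, act_add, act_smul, hg, act_act_inv]
    have h1 : hermForm n F q (act g⁻¹ x) v = hermForm n F q x (c • v) := by
      rw [herm_act_left, inv_inv, hg]
    rw [h1, herm_smul_right]
    funext i
    simp only [Pi.add_apply, Pi.smul_apply, smul_eq_mul]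
    ring
  intro g hg
  rw [Subgroup.mem_normalizer_iff]
  intro t
  refine ⟨fun ht => key g hg t ht, fun ht => ?_⟩
  have h1 := key g⁻¹ (inv_mem hg) _ ht
  rwa [inv_inv, mul_assoc, mul_assoc, inv_mul_cancel, mul_one, inv_mul_cancel_left] at h1

/-- the stabilizer of an isotropic line has index divisible by `p` -/
theorem dvd_index (hF : Fintype.card F = q ^ 2) (hn : 3 ≤ n) (hd : p ∣ q + 1) {v : Fin n → F}
    (hv : hermForm n F q v v = 0) (hv0 : v ≠ 0) :
    p ∣ ((H0 (q := q) v).map (QuotientGroup.mk' (Subgroup.center (SU n F q)))).index := by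
  obtain ⟨r, hchar⟩ := CharP.exists F
  obtain ⟨k, hrp, hk⟩ := FiniteField.card F r
  have hr : Fact r.Prime := ⟨hrp⟩
  have hfin : Finite (SU n F q) := inferInstance
  have hfin : Finite (PSU n F q) := Quotient.finite _
  refine dvd_index_of_D (r := r) (D := (D n q F p).map (QuotientGroup.mk' (Subgroup.center (SU n F q))))
    (isPGroup_D.map _) (fun Q hQ hDQ => no_r hF hn hd hQ hDQ)
    (V := (V0 hF v hv).map (QuotientGroup.mk' (Subgroup.center (SU n F q)))) ((isPGroup_V0 hF hv).map _) ?_ ?_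
  · obtain ⟨μ, hμ0, hμ⟩ := exists_trace_zero_ne hF
    have hs : IsSiegel q v 0 μ := ⟨hv, herm_zero_left v, by rw [herm_zero_left, add_zero]; exact hμ⟩
    set t := siegel hF v 0 μ hs with ht
    have hact : ∀ x, act t x = x + (μ * hermForm n F q x v) • v := by
      intro x
      rw [ht, act_siegel, herm_zero_right hF, smul_zero, add_zero, sub_zero]
    have htV : t ∈ V0 hF v hv := ⟨μ, hact⟩
    have ht1 : t ≠ 1 := by
      intro h1
      obtain ⟨x, hx⟩ := exists_herm_ne_zero hF hv0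
      have hx' : hermForm n F q x v ≠ 0 := by
        rw [herm_swap hF]
        exact pow_ne_zero _ hx
      have h2 := hact x
      rw [h1, act_one, left_eq_add] at h2
      rcases smul_eq_zero.1 h2 with h3 | h3
      · rcases mul_eq_zero.1 h3 with h4 | h4
        · exact hμ0 h4
        · exact hx' h4
      · exact hv0 h3
    intro hbot
    have h1 : QuotientGroup.mk' (Subgroup.center (SU n F q)) t = 1 := by
      rw [← Subgroup.mem_bot, ← hbot]
      exact Subgroup.mem_map_of_mem _ htV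
    have h2 : t ∈ Subgroup.center (SU n F q) := (QuotientGroup.eq_one_iff t).1 h1
    apply ht1
    have h3 : orderOf t ∣ Nat.card (Subgroup.center (SU n F q)) := by
      have := orderOf_dvd_natCard (⟨t, h2⟩ : Subgroup.center (SU n F q))
      rwa [Subgroup.orderOf_mk] at this
    rw [S0279.result hF n hn] at h3
    obtain ⟨j, hj⟩ := isPGroup_V0 (r := r) hF hv ⟨t, htV⟩
    have h4 : t ^ r ^ j = 1 := congrArg Subtype.val hj
    have h5 := Nat.dvd_gcd h3 (orderOf_dvd_of_pow_eq_one h4)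
    have h6 : Nat.gcd (Nat.gcd n (q + 1)) (r ^ j) = 1 := by
      rw [← Nat.coprime_iff_gcd_eq_one]
      apply Nat.Coprime.pow_right
      apply Nat.Coprime.coprime_dvd_left (Nat.gcd_dvd_right _ _)
      obtain ⟨f, hf1, hf⟩ := exists_q (r := r) hF
      rw [Nat.coprime_comm, Nat.Prime.coprime_iff_not_dvd hrp]
      intro h7
      have h8 : r ∣ q := hf ▸ dvd_pow_self r (by omega)
      exact hrp.one_lt.ne' (Nat.dvd_one.1 ((Nat.dvd_add_right h8).1 h7))
    rw [h6] at h5
    exact orderOf_eq_one_iff.1 (Nat.dvd_one.1 h5)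
  · refine (Subgroup.map_mono (le_normalizer hF hv)).trans ?_
    exact Subgroup.le_normalizer_map _

/-- the index of the stabilizer of an isotropic line -/
theorem index_le (hF : Fintype.card F = q ^ 2) {v : Fin n → F} (hv : hermForm n F q v v = 0) (hv0 : v ≠ 0) :
    (H0 (q := q) v).index * (q ^ 2 - 1) ≤ Nat.card {w : Fin n → F // hermForm n F q w w = 0} - 1 := by
  classical
  have hfin : Finite (SU n F q) := inferInstance
  have h1 : Nat.card Fˣ = q ^ 2 - 1 := by
    rw [Nat.card_eq_fintype_card, Fintype.card_units, hF]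
  let X := {w : Fin n → F // hermForm n F q w w = 0}
  have h0 : hermForm n F q (0 : Fin n → F) 0 = 0 := herm_zero_left _
  have h2 : Nat.card {w : X // w ≠ ⟨0, h0⟩} = Nat.card X - 1 := by
    have := Fintype.ofFinite X
    rw [Nat.card_eq_fintype_card, Fintype.card_subtype_compl, Fintype.card_subtype_eq, Nat.card_eq_fintype_card]
  rw [← h2, Subgroup.index, ← h1, ← Nat.card_prod]
  refine Nat.card_le_card_of_injective (fun x : (SU n F q ⧸ H0 (q := q) v) × Fˣ =>
    (⟨⟨(x.2 : F) • act x.1.out v, ?_⟩, ?_⟩ : {w : X // w ≠ ⟨0, h0⟩})) ?_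
  · rw [herm_smul_left, herm_smul_right, herm_act, hv, mul_zero, mul_zero]
  · intro h3
    have h4 : (x.2 : F) • act x.1.out v = 0 := congrArg Subtype.val h3
    rcases smul_eq_zero.1 h4 with h5 | h5
    · exact x.2.ne_zero h5
    · exact hv0 ((act_eq_zero _).1 h5)
  · rintro ⟨x, c⟩ ⟨y, d⟩ hxy
    have h3 : (c : F) • act x.out v = (d : F) • act y.out v := congrArg (fun z => ((z : X) : Fin n → F)) (congrArg Subtype.val hxy)
    have hx : x = y := by
      rw [← QuotientGroup.out_eq' x, ← QuotientGroup.out_eq' y, QuotientGroup.eq]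
      refine ⟨(c : F) * (d : F)⁻¹, mul_ne_zero c.ne_zero (inv_ne_zero d.ne_zero), ?_⟩
      rw [act_mul]
      have h4 : act y.out v = ((c : F) * (d : F)⁻¹) • act x.out v := by
        rw [mul_comm, ← smul_smul, h3, smul_smul, inv_mul_cancel₀ d.ne_zero, one_smul]
      rw [h4, act_smul, act_inv_act]
    subst hx
    have h5 : ((c : F) - d) • act x.out v = 0 := by rw [sub_smul, h3, sub_self]
    rcases smul_eq_zero.1 h5 with h6 | h6
    · have h7 : c = d := Units.ext (sub_eq_zero.1 h6)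
      rw [h7]
    · exact absurd ((act_eq_zero _).1 h6) hv0

/-- **The small degree.** -/
theorem small (hF : Fintype.card F = q ^ 2) (hn : 4 ≤ n) (hd : p ∣ q + 1) :
    ∃ χ : IrrCharacter (PSU n F q), InB0 p χ ∧ NT χ ∧ 2 * charDegree (χ : PSU n F q → ℂ) ≤ 3 * q ^ (2 * n - 3) := by
  have hq := H719.BD.two_le_q hF
  have hfin : Finite (SU n F q) := inferInstance
  have hfin : Finite (PSU n F q) := Quotient.finite _
  have hcard := Cfsg.Agent.LieClassical.HermCount.card_isotropic hF n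
  have hpos : 1 < Nat.card {v : Fin n → F // hermForm n F q v v = 0} := by
    rw [hcard]
    have h1 : 2 ^ n ≤ q ^ n := Nat.pow_le_pow_left hq n
    have h2 : 2 ^ (n - 1) ≤ q ^ (n - 1) := Nat.pow_le_pow_left hq _
    have h3 : 2 ^ 1 ≤ 2 ^ (n - 1) := Nat.pow_le_pow_right (by norm_num) (by omega)
    have h4 : 2 ^ 1 ≤ 2 ^ n := Nat.pow_le_pow_right (by norm_num) (by omega)
    split_ifs
    · have : 0 < (q ^ n - 1) * (q ^ (n - 1) + 1) := Nat.mul_pos (by omega) (by omega)
      omega
    · have : 0 < (q ^ n + 1) * (q ^ (n - 1) - 1) := Nat.mul_pos (by omega) (by omega)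
      omega
  obtain ⟨v, hv, hv0⟩ : ∃ v : Fin n → F, hermForm n F q v v = 0 ∧ v ≠ 0 := by
    have h1 := Finite.one_lt_card_iff_nontrivial.1 hpos
    obtain ⟨x, hx⟩ := exists_ne (⟨0, herm_zero_left _⟩ : {v : Fin n → F // hermForm n F q v v = 0})
    exact ⟨x.1, x.2, fun h => hx (Subtype.ext h)⟩
  obtain ⟨χ, h1, h2, h3⟩ := exists_small _ (dvd_index (p := p) hF (by omega) hd hv hv0)
  refine ⟨χ, h1, h2, ?_⟩
  have h4 : ((H0 (q := q) v).map (QuotientGroup.mk' (Subgroup.center (SU n F q)))).index ≤ (H0 (q := q) v).index := by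
    rw [Subgroup.index_map, MonoidHom.range_eq_top.2 (QuotientGroup.mk'_surjective _), Subgroup.index_top, mul_one]
    exact Nat.le_of_dvd (Nat.pos_of_ne_zero Subgroup.index_ne_zero_of_finite) (Subgroup.index_dvd_of_le le_sup_left)
  have h5 := index_le hF hv hv0
  rw [hcard, Nat.add_sub_cancel] at h5
  obtain ⟨k, rfl⟩ : ∃ k, n = k + 4 := ⟨n - 4, by omega⟩
  have e1 : k + 4 - 1 = k + 3 := by omega
  have e2 : 2 * (k + 4) - 3 = 2 * k + 5 := by omega
  rw [e1] at h5
  rw [e2]
  have h6 : (H0 (q := q) v).index * (q ^ 2 - 1) ≤ q ^ (2 * k + 7) + q ^ (k + 4) := by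
    refine h5.trans ?_
    have e3 : q ^ (2 * k + 7) = q ^ (k + 4) * q ^ (k + 3) := by rw [← pow_add]; congr 1; ring
    have h7 : q ^ (k + 3) ≤ q ^ (k + 4) := Nat.pow_le_pow_right (by omega) (by omega)
    have h8 : 1 ≤ q ^ (k + 3) := Nat.one_le_pow _ _ (by omega)
    have h9 : 1 ≤ q ^ (k + 4) := Nat.one_le_pow _ _ (by omega)
    split_ifs
    · rw [e3]
      calc (q ^ (k + 4) - 1) * (q ^ (k + 3) + 1) ≤ q ^ (k + 4) * (q ^ (k + 3) + 1) :=
            Nat.mul_le_mul_right _ (Nat.sub_le _ _)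
        _ = q ^ (k + 4) * q ^ (k + 3) + q ^ (k + 4) := by ring
    · rw [e3]
      calc (q ^ (k + 4) + 1) * (q ^ (k + 3) - 1) ≤ (q ^ (k + 4) + 1) * q ^ (k + 3) :=
            Nat.mul_le_mul_left _ (Nat.sub_le _ _)
        _ = q ^ (k + 4) * q ^ (k + 3) + q ^ (k + 3) := by ring
        _ ≤ _ := by omega
  set N := (H0 (q := q) v).index
  have h7 : charDegree (χ : PSU (k + 4) F q → ℂ) ≤ N := (h3.le).trans h4
  have h8 : 2 * N ≤ 3 * q ^ (2 * k + 5) := by
    have h9 : 0 < q ^ 2 - 1 := by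
      have : 2 ^ 2 ≤ q ^ 2 := Nat.pow_le_pow_left hq 2
      omega
    refine Nat.le_of_mul_le_mul_right ?_ h9
    have h10 : 3 * q ^ (2 * k + 5) * (q ^ 2 - 1) + 3 * q ^ (2 * k + 5) = 3 * q ^ (2 * k + 7) := by
      obtain ⟨m, hm⟩ : ∃ m, q ^ 2 = m + 1 := ⟨q ^ 2 - 1, by omega⟩
      have e5 : q ^ (2 * k + 7) = q ^ (2 * k + 5) * q ^ 2 := by rw [← pow_add]
      rw [e5, hm, Nat.add_sub_cancel]
      ring
    have h11 : 3 * q ^ (2 * k + 5) + 2 * q ^ (k + 4) ≤ q ^ (2 * k + 7) := by
      have e4 : q ^ (2 * k + 7) = q ^ 2 * q ^ (2 * k + 5) := by rw [← pow_add]; congr 1; ring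
      have h12 : 4 ≤ q ^ 2 := by nlinarith
      have h13 : 2 * q ^ (k + 4) ≤ q ^ (2 * k + 5) := by
        calc 2 * q ^ (k + 4) ≤ q * q ^ (k + 4) := Nat.mul_le_mul_right _ hq
          _ = q ^ (k + 5) := by ring
          _ ≤ q ^ (2 * k + 5) := Nat.pow_le_pow_right (by omega) (by omega)
      rw [e4]
      nlinarith [Nat.mul_le_mul_right (q ^ (2 * k + 5)) h12]
    have h14 : 2 * N * (q ^ 2 - 1) = 2 * (N * (q ^ 2 - 1)) := by ring
    omega
  omega

end r

end Cfsg.Agent.H719.BD.PsuOne
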