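import Cfsg.Agent.H116.RatB0.RowRgd
import Cfsg.Agent.Nodes.HasRGD
import Cfsg.Agent.KFacts.RgdAutFacts
import Cfsg.Agent.H554.RG

/-!
# The Steinberg character in the principal block (helper719, for S4932)

`st_of_D` : `S` a finite group with a root group datum of characteristic `r`, `D` a `p`-subgroup of `S`, `p ≠ r`, which
normalizes no nontrivial `r`-subgroup of `S`: the Steinberg character, of degree `|S|_r`, lies in the principal `p`-block
(all proper parabolic subgroups have index divisible by `p`).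
-/

set_option autoImplicit false
set_option linter.unusedSectionVars false

namespace Cfsg.Agent.H719.BD

open Cfsg CoxeterSystem Cfsg.Agent.KFacts.RgdDiag Cfsg.Agent.KFacts.RgdOpp Cfsg.Agent.H554.RG Cfsg.Agent.ChevalleyStructure.CoxeterGeom Cfsg.Agent.Tits.Roots Cfsg.Agent.Tits.Core
  Cfsg.Agent.Tits.Exchange Cfsg.Agent.Nodes.Reps Cfsg.Agent.Nodes.BNOf Cfsg.Agent.Nodes.StabComb
  Cfsg.Agent.Nodes.Bruhat Cfsg.Agent.Nodes.OppDec Cfsg.Agent.Nodes.LeviDec Cfsg.Agent.Nodes.NormalForm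
  Cfsg.Agent.H116.RatB0 Cfsg.Agent.KFacts.RgdAut

universe u

section general

/-- `D` normalizes no nontrivial `r`-subgroup: a subgroup normalizing a nontrivial `r`-subgroup has index divisible
by `p`. -/
theorem dvd_index_of_D {S : Type u} [Group S] [Finite S] {p r : ℕ} [hp : Fact p.Prime] {D : Subgroup S}
    (hD : IsPGroup p D)
    (hn : ∀ R : Subgroup S, IsPGroup r R → D ≤ Subgroup.normalizer (R : Set S) → R = ⊥)
    {P V : Subgroup S} (hV : IsPGroup r V) (hV1 : V ≠ ⊥) (hPV : P ≤ Subgroup.normalizer (V : Set S)) :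
    p ∣ P.index := by
  by_contra hcon
  obtain ⟨P₀, hP₀⟩ : ∃ P₀ : Sylow p S, (P₀ : Subgroup S) ≤ P := by
    let Q : Sylow p P := default
    obtain ⟨P₀, hP₀⟩ := (Q.isPGroup'.map P.subtype).exists_le_sylow
    refine ⟨P₀, ?_⟩
    have e1 : Nat.card ((Q : Subgroup P).map P.subtype) = Nat.card P₀ := by
      rw [P₀.card_eq_multiplicity, Nat.card_congr ((Q : Subgroup P).equivMapOfInjective _
        P.subtype_injective).symm.toEquiv, Q.card_eq_multiplicity, ← Subgroup.index_mul_card P]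
      congr 1
      rw [Nat.factorization_mul Subgroup.index_ne_zero_of_finite Nat.card_pos.ne', Finsupp.add_apply,
        Nat.factorization_eq_zero_of_not_dvd hcon, zero_add]
    have e2 : (Q : Subgroup P).map P.subtype = P₀ := Subgroup.eq_of_le_of_card_ge hP₀ e1.ge
    rw [← e2]
    exact Subgroup.map_subtype_le _
  obtain ⟨D₀, hD₀⟩ := hD.exists_le_sylow
  obtain ⟨g, hg⟩ := MulAction.exists_smul_eq S D₀ P₀
  -- `g D g⁻¹ ≤ P`
  have h1 : ∀ d ∈ D, g * d * g⁻¹ ∈ P := by
    intro d hd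
    apply hP₀
    rw [← hg, Sylow.smul_def]
    exact ⟨d, hD₀ hd, rfl⟩
  apply hV1
  have h2 := hn (V.map (MulAut.conj g⁻¹).toMonoidHom) (hV.map _) (by
    intro d hd
    have h3 := hPV (h1 d hd)
    rw [Subgroup.mem_normalizer_iff] at h3 ⊢
    intro x
    constructor
    · rintro ⟨v, hv, rfl⟩
      have h4 := (h3 v).1 hv
      refine ⟨_, h4, ?_⟩
      simp only [MulEquiv.coe_toMonoidHom, MulAut.conj_apply]
      group
    · rintro ⟨v, hv, e⟩
      refine ⟨(g * d * g⁻¹)⁻¹ * v * (g * d * g⁻¹), ?_, ?_⟩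
      · refine (h3 _).2 ?_
        have e2 : g * d * g⁻¹ * ((g * d * g⁻¹)⁻¹ * v * (g * d * g⁻¹)) * (g * d * g⁻¹)⁻¹ = v := by group
        rw [e2]
        exact hv
      · simp only [MulEquiv.coe_toMonoidHom, MulAut.conj_apply] at e ⊢
        have e3 : x = d⁻¹ * (g⁻¹ * v * g⁻¹⁻¹) * d := by rw [e]; group
        rw [e3]
        group)
  rw [Subgroup.eq_bot_iff_forall] at h2 ⊢
  intro v hv
  have h3 := h2 _ ⟨v, hv, rfl⟩
  simp only [MulEquiv.coe_toMonoidHom, MulAut.conj_apply, inv_inv] at h3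
  have h4 : v = g * (g⁻¹ * v * g) * g⁻¹ := by group
  rw [h4, h3]
  group

end general

section lift

variable {G S : Type*} [Group G] [Group S] [Finite G]

/-- **Lifting** a normalized `r`-subgroup through a central kernel of order prime to `r`. -/
theorem exists_lift {r : ℕ} [hr : Fact r.Prime] (π : G →* S) (hπ : Function.Surjective π)
    (hker : π.ker ≤ Subgroup.center G) {D : Subgroup G} {Q : Subgroup S} (hQ : IsPGroup r Q)
    (hQ1 : Q ≠ ⊥) (hDQ : D.map π ≤ Subgroup.normalizer (Q : Set S)) :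
    ∃ T : Subgroup G, IsPGroup r T ∧ D ≤ Subgroup.normalizer (T : Set G) ∧ T ≠ ⊥ := by
  classical
  have hS : Finite S := Finite.of_surjective π hπ
  have hr1 := hr.out
  set O : Subgroup G := Q.comap π with hO
  let f : O →* Q := (π.comp O.subtype).codRestrict Q fun x => x.2
  have hfk : f.ker ≤ Subgroup.center O := by
    intro x hx
    rw [Subgroup.mem_center_iff]
    intro y
    apply Subtype.ext
    have h1 : (x : G) ∈ π.ker := by
      have h2 : f x = 1 := hx
      exact congrArg Subtype.val h2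
    exact (Subgroup.mem_center_iff.1 (hker h1) y)
  have hQn : Group.IsNilpotent Q := hQ.isNilpotent
  have hOn : Group.IsNilpotent O := Subgroup.isNilpotent_of_ker_le_center f hfk
  let T₀ : Sylow r O := default
  have hT₀ : (T₀ : Subgroup O).Normal := by
    have h1 : ∀ (p : ℕ) (_ : Fact p.Prime) (P : Sylow p O), (P : Subgroup O).Normal :=
      (Group.isNilpotent_of_finite_tfae.out 0 3).1 hOn
    exact h1 r hr T₀
  have hchar : (T₀ : Subgroup O).Characteristic := Sylow.characteristic_of_normal T₀ hT₀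
  have hcard : r ∣ Nat.card O := by
    have h1 : r ∣ Nat.card Q := by
      obtain ⟨k, hk⟩ := IsPGroup.iff_card.1 hQ
      rw [hk]
      refine dvd_pow_self r ?_
      rintro rfl
      rw [pow_zero] at hk
      exact hQ1 (Subgroup.card_eq_one.1 hk)
    refine h1.trans ?_
    have hfs : Function.Surjective f := by
      rintro ⟨q, hq⟩
      obtain ⟨g, rfl⟩ := hπ q
      exact ⟨⟨g, hq⟩, rfl⟩
    exact Subgroup.card_dvd_of_surjective f hfs
  have hne : (T₀ : Subgroup O).map O.subtype ≠ ⊥ := by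
    intro h1
    have h2 : (T₀ : Subgroup O) = ⊥ := by
      rw [eq_bot_iff]
      intro x hx
      have h3 : (x : G) ∈ (T₀ : Subgroup O).map O.subtype := ⟨x, hx, rfl⟩
      rw [h1, Subgroup.mem_bot] at h3
      exact Subtype.ext h3
    have h4 := T₀.card_eq_multiplicity
    rw [h2, Subgroup.card_bot] at h4
    have h5 : 0 < (Nat.card O).factorization r := hr1.factorization_pos_of_dvd Nat.card_pos.ne' hcard
    have h6 : 1 < r ^ (Nat.card O).factorization r := Nat.one_lt_pow h5.ne' hr1.one_lt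
    omega
  refine ⟨(T₀ : Subgroup O).map O.subtype, T₀.isPGroup'.map _, ?_, hne⟩
  intro d hd
  have h1 : π d ∈ Subgroup.normalizer (Q : Set S) := hDQ ⟨d, hd, rfl⟩
  have h2 : ∀ x : G, x ∈ O ↔ d * x * d⁻¹ ∈ O := by
    intro x
    show π x ∈ Q ↔ π (d * x * d⁻¹) ∈ Q
    rw [map_mul, map_mul, map_inv]
    exact (Subgroup.mem_normalizer_iff.1 h1) (π x)
  let e : O ≃* O :=
    { toFun := fun x => ⟨d * x * d⁻¹, (h2 _).1 x.2⟩
      invFun := fun x => ⟨d⁻¹ * x * d, (h2 _).2 (by
        have : d * (d⁻¹ * (x : G) * d) * d⁻¹ = x := by group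
        rw [this]; exact x.2)⟩
      left_inv := fun x => Subtype.ext (by simp only; group)
      right_inv := fun x => Subtype.ext (by simp only; group)
      map_mul' := fun x y => Subtype.ext (by simp only [Subgroup.coe_mul]; group) }
  have h3 : ∀ x : O, x ∈ (T₀ : Subgroup O) ↔ e x ∈ (T₀ : Subgroup O) := by
    intro x
    have h4 := Subgroup.characteristic_iff_comap_eq.1 hchar e
    constructor
    · intro hx
      rw [← h4] at hx
      exact hx
    · intro hx
      rw [← h4]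
      exact hx
  rw [Subgroup.mem_normalizer_iff]
  intro x
  constructor
  · rintro ⟨y, hy, rfl⟩
    exact ⟨e y, (h3 y).1 hy, rfl⟩
  · rintro ⟨y, hy, e1⟩
    have e2 : x ∈ O := by
      rw [h2 x, ← e1]
      exact y.2
    refine ⟨⟨x, e2⟩, (h3 _).2 ?_, rfl⟩
    have e3 : e ⟨x, e2⟩ = y := Subtype.ext e1.symm
    rw [e3]
    exact hy

variable {K V : Type*} [Field K] [AddCommGroup V] [Module K V] [Finite V]

/-- the fixed space of a nontrivial `r`-group -/
theorem exists_fixed {r : ℕ} [hr : Fact r.Prime] (hV : (r : K) = 0) (ρ : G →* (V →ₗ[K] V)) {T : Subgroup G}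
    (hT : IsPGroup r T) (U : Submodule K V) (hU : U ≠ ⊥) (hTU : ∀ t ∈ T, ∀ u ∈ U, ρ t u ∈ U) :
    ∃ u ∈ U, u ≠ 0 ∧ ∀ t ∈ T, ρ t u = u := by
  classical
  let act : MulAction T U :=
    { smul := fun t u => ⟨ρ (t : G) u, hTU _ t.2 _ u.2⟩
      one_smul := fun u => Subtype.ext (by
        show ρ ((1 : T) : G) (u : V) = u
        rw [Subgroup.coe_one, map_one, Module.End.one_apply])
      mul_smul := fun s t u => Subtype.ext (by
        show ρ ((s * t : T) : G) (u : V) = ρ (s : G) (ρ (t : G) (u : V))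
        rw [Subgroup.coe_mul, map_mul, Module.End.mul_apply]) }
  have h1 := hT.card_modEq_card_fixedPoints U
  have h2 : r ∣ Nat.card U := by
    obtain ⟨u, hu, hu0⟩ := (Submodule.ne_bot_iff U).1 hU
    have h3 : addOrderOf (⟨u, hu⟩ : U) = r := by
      apply addOrderOf_eq_prime
      · apply Subtype.ext
        show r • u = 0
        rw [← Nat.cast_smul_eq_nsmul K, hV, zero_smul]
      · intro h4
        exact hu0 (congrArg Subtype.val h4)
    rw [← h3]
    exact addOrderOf_dvd_natCard _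
  have h3 : r ∣ Nat.card (MulAction.fixedPoints T U) := (Nat.modEq_zero_iff_dvd.1 (h1.symm.trans (Nat.modEq_zero_iff_dvd.2 h2)))
  have h4 : (0 : U) ∈ MulAction.fixedPoints T U := by
    intro t
    apply Subtype.ext
    show ρ (t : G) 0 = 0
    exact map_zero _
  have h5 : 1 < Nat.card (MulAction.fixedPoints T U) := by
    have h6 : 0 < Nat.card (MulAction.fixedPoints T U) := Nat.card_pos_iff.2 ⟨⟨⟨0, h4⟩⟩, inferInstance⟩
    exact lt_of_lt_of_le hr.out.one_lt (Nat.le_of_dvd h6 h3)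
  obtain ⟨⟨u, hu⟩, hne⟩ : ∃ u : MulAction.fixedPoints T U, u ≠ ⟨0, h4⟩ := by
    by_contra hcon
    push Not at hcon
    have h7 : Nat.card (MulAction.fixedPoints T U) = 1 :=
      Nat.card_eq_one_iff_unique.2 ⟨⟨fun a b => by rw [hcon a, hcon b]⟩, ⟨⟨0, h4⟩⟩⟩
    omega
  refine ⟨u, u.2, fun h => hne (Subtype.ext (Subtype.ext h)), fun t ht => ?_⟩
  exact congrArg Subtype.val (hu ⟨t, ht⟩)

/-- **An irreducible subgroup normalizes no nontrivial `r`-subgroup.** -/
theorem eq_bot_of_irr {r : ℕ} [hr : Fact r.Prime] (hV : (r : K) = 0) (ρ : G →* (V →ₗ[K] V))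
    (hρ : Function.Injective ρ) {D : Subgroup G}
    (hD : ∀ U : Submodule K V, U ≠ ⊥ → (∀ d ∈ D, ∀ u ∈ U, ρ d u ∈ U) → U = ⊤)
    {T : Subgroup G} (hT : IsPGroup r T) (hDT : D ≤ Subgroup.normalizer (T : Set G)) : T = ⊥ := by
  by_contra hT1
  let F : Submodule K V :=
    { carrier := {v | ∀ t ∈ T, ρ t v = v}
      add_mem' := fun {a b} ha hb t ht => by rw [map_add, ha t ht, hb t ht]
      zero_mem' := fun t _ => map_zero _
      smul_mem' := fun c v hv t ht => by rw [map_smul, hv t ht] }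
  have hFinv : ∀ d ∈ D, ∀ u ∈ F, ρ d u ∈ F := by
    intro d hd u hu t ht
    have h1 : d⁻¹ * t * d ∈ T := by
      have := (Subgroup.mem_normalizer_iff.1 (inv_mem (hDT hd)) t).1 ht
      rwa [inv_inv] at this
    have h2 := hu _ h1
    rw [← Module.End.mul_apply, ← map_mul]
    have e : t * d = d * (d⁻¹ * t * d) := by group
    rw [e, map_mul, Module.End.mul_apply, h2]
  apply hT1
  rw [Subgroup.eq_bot_iff_forall]
  intro t ht
  apply hρ
  rw [map_one]
  by_cases hne : (⊤ : Submodule K V) = ⊥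
  · ext v
    have : v ∈ (⊥ : Submodule K V) := hne ▸ Submodule.mem_top
    rw [Submodule.mem_bot] at this
    rw [this, map_zero, map_zero]
  · obtain ⟨u, -, hu0, hu⟩ := exists_fixed hV ρ hT ⊤ hne (fun _ _ _ _ => Submodule.mem_top)
    have hF : F = ⊤ := hD F ((Submodule.ne_bot_iff F).2 ⟨u, hu, hu0⟩) hFinv
    ext v
    have hv : v ∈ F := by rw [hF]; exact Submodule.mem_top
    exact hv t ht

/-- **A subgroup without totally isotropic invariant subspaces normalizes no nontrivial `r`-subgroup.** -/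
theorem eq_bot_of_form {r : ℕ} [hr : Fact r.Prime] (hV : (r : K) = 0) (ρ : G →* (V →ₗ[K] V))
    (hρ : Function.Injective ρ) {D : Subgroup G} (B : V → V →ₗ[K] K)
    (hB : ∀ (g : G) (u v : V), B (ρ g u) (ρ g v) = B u v)
    (hD : ∀ U : Submodule K V, U ≠ ⊥ → (∀ d ∈ D, ∀ u ∈ U, ρ d u ∈ U) → ∃ u ∈ U, ∃ v ∈ U, B u v ≠ 0)
    {T : Subgroup G} (hT : IsPGroup r T) (hDT : D ≤ Subgroup.normalizer (T : Set G)) : T = ⊥ := by
  by_contra hT1
  let F : Submodule K V :=
    { carrier := {v | ∀ t ∈ T, ρ t v = v}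
      add_mem' := fun {a b} ha hb t ht => by rw [map_add, ha t ht, hb t ht]
      zero_mem' := fun t _ => map_zero _
      smul_mem' := fun c v hv t ht => by rw [map_smul, hv t ht] }
  let F' : Submodule K V :=
    { carrier := {v | ∀ u ∈ F, B u v = 0}
      add_mem' := fun {a b} ha hb t ht => by rw [map_add, ha t ht, hb t ht, add_zero]
      zero_mem' := fun t _ => map_zero _
      smul_mem' := fun c v hv t ht => by rw [map_smul, hv t ht, smul_zero] }
  have hcan : ∀ (g : G) (v : V), ρ g (ρ g⁻¹ v) = v := by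
    intro g v
    rw [← Module.End.mul_apply, ← map_mul, mul_inv_cancel, map_one, Module.End.one_apply]
  have hBi : ∀ (g : G) (u v : V), B u (ρ g v) = B (ρ g⁻¹ u) v := by
    intro g u v
    have := hB g (ρ g⁻¹ u) v
    rwa [hcan] at this
  have hFinv : ∀ d ∈ Subgroup.normalizer (T : Set G), ∀ u ∈ F, ρ d u ∈ F := by
    intro d hd u hu t ht
    have h1 : d⁻¹ * t * d ∈ T := by
      have := (Subgroup.mem_normalizer_iff.1 (inv_mem hd) t).1 ht
      rwa [inv_inv] at this
    have h2 := hu _ h1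
    rw [← Module.End.mul_apply, ← map_mul]
    have e : t * d = d * (d⁻¹ * t * d) := by group
    rw [e, map_mul, Module.End.mul_apply, h2]
  have hF'inv : ∀ d ∈ Subgroup.normalizer (T : Set G), ∀ u ∈ F', ρ d u ∈ F' := by
    intro d hd u hu w hw
    rw [hBi]
    exact hu _ (hFinv _ (inv_mem hd) w hw)
  by_cases hF' : F' = ⊥
  · -- `T` acts trivially
    apply hT1
    rw [Subgroup.eq_bot_iff_forall]
    intro t ht
    apply hρ
    rw [map_one]
    ext v
    have h1 : ρ t v - v ∈ F' := by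
      intro u hu
      rw [map_sub, hBi, hu t⁻¹ (inv_mem ht), sub_self]
    rw [hF', Submodule.mem_bot, sub_eq_zero] at h1
    exact h1
  · obtain ⟨w, hwF', hw0, hw⟩ := exists_fixed hV ρ hT F' hF'
      (fun t ht u hu => hF'inv t (Subgroup.le_normalizer ht) u hu)
    obtain ⟨u, hu, v, hv, huv⟩ := hD (F ⊓ F') ((Submodule.ne_bot_iff _).2 ⟨w, ⟨hw, hwF'⟩, hw0⟩)
      (fun d hd u hu => ⟨hFinv d (hDT hd) u hu.1, hF'inv d (hDT hd) u hu.2⟩)
    exact huv (hv.2 u hu.1)

end lift

section rgd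

variable {I W : Type*} {S : Type u} [Fintype I] [DecidableEq I] [Group W] [Group S] {M : CoxeterMatrix I}
  {cs : CoxeterSystem M W} {A : I → I → ℤ} {h : IsCartan M A} {r : ℕ} {T : Subgroup S} {n : I → S}
  {X : (I → ℤ) → Subgroup S} (R : RGD cs h r T n X)

include R

/-- the Steinberg character lies in `B₀` if all proper parabolic subgroups have index divisible by `p` -/
theorem st_of_index [Finite W] [Finite S] [hr : Fact r.Prime] (hG : GG cs h T X = ⊤) {p : ℕ} [hp : Fact p.Prime]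
    (hpr : p ≠ r) (hJ : ∀ J : Set I, J ≠ Set.univ → p ∣ (PJ cs h T X J).index) :
    ∃ χ : IrrCharacter S, (∀ M' : Ideal AlgInt, IsPModular p M' → χ ∈ principalBlock M' S) ∧
      charDegree (χ : S → ℂ) = Nat.card (RGD.Sup X (RGD.Pos cs h)) := by
  classical
  obtain ⟨h1, h2⟩ := exists_char_PJ R hG
  set χ : IrrCharacter S := ⟨_, h1⟩ with hχ
  have hval : ∀ g, (χ : S → ℂ) g = ∑ K ∈ (Finset.univ : Finset I).powerset, (((-1 : ℤ) ^ K.card : ℤ) : ℂ) *
      fixedPointCharacter (PJ cs h T X (K : Set I)) g := by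
    intro g
    show (∑ K ∈ (Finset.univ : Finset I).powerset, (-1 : ℂ) ^ K.card *
      fixedPointCharacter (PJ cs h T X (K : Set I)) g) = _
    refine Finset.sum_congr rfl fun K _ => ?_
    push_cast
    rfl
  have hdeg : charDegree (χ : S → ℂ) = Nat.card (RGD.Sup X (RGD.Pos cs h)) := by
    have h3 : (charDegree (χ : S → ℂ) : ℂ) = (χ : S → ℂ) 1 := (Blocks.Knorr.charDegree_eq χ.2).symm
    have h4 : (χ : S → ℂ) 1 = (Nat.card (RGD.Sup X (RGD.Pos cs h)) : ℂ) := h2
    rw [h4] at h3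
    exact_mod_cast h3
  have hp' : ¬ p ∣ charDegree (χ : S → ℂ) := by
    rw [hdeg]
    obtain ⟨Q, hQ⟩ := exists_sylow R hG
    have h3 := Q.isPGroup'
    obtain ⟨k, hk⟩ := IsPGroup.iff_card.1 h3
    rw [← hQ]
    intro h4
    rw [hk] at h4
    exact hpr ((Nat.prime_dvd_prime_iff_eq hp.out hr.out).1 (hp.out.dvd_of_dvd_pow h4))
  refine ⟨χ, fun M' hM => ?_, hdeg⟩
  refine mem_of_alt hM (Finset.univ : Finset I).powerset (fun K => (-1 : ℤ) ^ K.card)
    (fun K => PJ cs h T X (K : Set I)) χ hval hp' ?_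
  intro K _
  by_cases hK : K = Finset.univ
  · refine Or.inr ?_
    rw [hK, Finset.coe_univ, PJ_univ R hG]
  · refine Or.inl (hJ K fun e => hK ?_)
    exact_mod_cast e

/-- the version with a `p`-subgroup -/
theorem st_of_D_rgd [Finite W] [Finite S] [hr : Fact r.Prime] (hG : GG cs h T X = ⊤) {p : ℕ} [hp : Fact p.Prime]
    (hpr : p ≠ r) {D : Subgroup S} (hD : IsPGroup p D)
    (hn : ∀ Q : Subgroup S, IsPGroup r Q → D ≤ Subgroup.normalizer (Q : Set S) → Q = ⊥) :
    ∃ χ : IrrCharacter S, (∀ M' : Ideal AlgInt, IsPModular p M' → χ ∈ principalBlock M' S) ∧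
      charDegree (χ : S → ℂ) = r ^ (Nat.card S).factorization r := by
  obtain ⟨χ, h1, h2⟩ := st_of_index R hG hpr fun J hJ => by
    refine dvd_index_of_D hD hn (V := VJ cs h X J) (R.isPGroup_Upos.to_le (VJ_le_U J)) ?_ (PJ_le_normalizer_VJ R J)
    obtain ⟨i, hi⟩ := (Set.ne_univ_iff_exists_notMem J).1 hJ
    intro h3
    apply X_ne_bot R (isRoot_sr cs h i)
    rw [eq_bot_iff, ← h3]
    exact RGD.le_Sup (sr_mem_NotJ hi)
  refine ⟨χ, h1, ?_⟩
  obtain ⟨Q, hQ⟩ := exists_sylow R hG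
  rw [h2, ← hQ]
  exact Q.card_eq_multiplicity

end rgd

/-- **The Steinberg character in the principal block.** -/
theorem st_of_D {S : Type u} [Group S] [Finite S] {r p : ℕ} [hr : Fact r.Prime] [hp : Fact p.Prime]
    (hS : Nodes.RGDChev.HasRGD r S) (hpr : p ≠ r) {D : Subgroup S} (hD : IsPGroup p D)
    (hn : ∀ Q : Subgroup S, IsPGroup r Q → D ≤ Subgroup.normalizer (Q : Set S) → Q = ⊥) :
    ∃ χ : IrrCharacter S, (∀ M' : Ideal AlgInt, IsPModular p M' → χ ∈ principalBlock M' S) ∧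
      charDegree (χ : S → ℂ) = r ^ (Nat.card S).factorization r := by
  obtain ⟨l, M, A, h, T, n, X, hfin, R, hG1⟩ := hS
  have hG : GG M.toCoxeterSystem h T X = ⊤ := by
    rw [eq_top_iff, ← hG1]
    exact le_sup_right
  exact st_of_D_rgd R hG hpr hD hn

/-- **The Steinberg character of a central quotient of a linear group, irreducible `p`-subgroup.** -/
theorem st_of_irr {S : Type u} [Group S] [Finite S] {r p : ℕ} [hr : Fact r.Prime] [hp : Fact p.Prime]
    (hS : Nodes.RGDChev.HasRGD r S) (hpr : p ≠ r) {G K V : Type*} [Group G] [Finite G] [Field K] [AddCommGroup V]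
    [Module K V] [Finite V] (π : G →* S) (hπ : Function.Surjective π) (hker : π.ker ≤ Subgroup.center G)
    (hV : (r : K) = 0) (ρ : G →* (V →ₗ[K] V)) (hρ : Function.Injective ρ) {D : Subgroup G} (hDp : IsPGroup p D)
    (hD : ∀ U : Submodule K V, U ≠ ⊥ → (∀ d ∈ D, ∀ u ∈ U, ρ d u ∈ U) → U = ⊤) :
    ∃ χ : IrrCharacter S, (∀ M' : Ideal AlgInt, IsPModular p M' → χ ∈ principalBlock M' S) ∧
      charDegree (χ : S → ℂ) = r ^ (Nat.card S).factorization r := by
  refine st_of_D hS hpr (hDp.map π) fun Q hQ hDQ => ?_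
  by_contra hQ1
  obtain ⟨T, hT, hDT, hT1⟩ := exists_lift π hπ hker hQ hQ1 hDQ
  exact hT1 (eq_bot_of_irr hV ρ hρ hD hT hDT)

/-- **The Steinberg character of a central quotient of an isometry group.** -/
theorem st_of_form {S : Type u} [Group S] [Finite S] {r p : ℕ} [hr : Fact r.Prime] [hp : Fact p.Prime]
    (hS : Nodes.RGDChev.HasRGD r S) (hpr : p ≠ r) {G K V : Type*} [Group G] [Finite G] [Field K] [AddCommGroup V]
    [Module K V] [Finite V] (π : G →* S) (hπ : Function.Surjective π) (hker : π.ker ≤ Subgroup.center G)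
    (hV : (r : K) = 0) (ρ : G →* (V →ₗ[K] V)) (hρ : Function.Injective ρ) (B : V → V →ₗ[K] K)
    (hB : ∀ (g : G) (u v : V), B (ρ g u) (ρ g v) = B u v) {D : Subgroup G} (hDp : IsPGroup p D)
    (hD : ∀ U : Submodule K V, U ≠ ⊥ → (∀ d ∈ D, ∀ u ∈ U, ρ d u ∈ U) → ∃ u ∈ U, ∃ v ∈ U, B u v ≠ 0) :
    ∃ χ : IrrCharacter S, (∀ M' : Ideal AlgInt, IsPModular p M' → χ ∈ principalBlock M' S) ∧
      charDegree (χ : S → ℂ) = r ^ (Nat.card S).factorization r := by
  refine st_of_D hS hpr (hDp.map π) fun Q hQ hDQ => ?_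
  by_contra hQ1
  obtain ⟨T, hT, hDT, hT1⟩ := exists_lift π hπ hker hQ hQ1 hDQ
  exact hT1 (eq_bot_of_form hV ρ hρ B hB hD hT hDT)

end Cfsg.Agent.H719.BD
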